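import Mathlib

set_option autoImplicit false

namespace Cfsg.Agent.Lib.Helper9

variable {G : Type*} [Group G]

/-- An element `b` of order dividing `p` stabilising (by conjugation) the subgroup `T` and the
coset `x N` (with `x ∈ T`), where `|T ∩ N|` is prime to `p`, centralises some element of
`T ∩ x N`. -/
theorem exists_fixed_in_coset [Finite G] {p : ℕ} [Fact p.Prime] (T N : Subgroup G) (b x : G)
    (hbp : b ^ p = 1) (hT : ∀ y ∈ T, b * y * b⁻¹ ∈ T) (hx : x ∈ T)
    (hN : ∀ y, x⁻¹ * y ∈ N → x⁻¹ * (b * y * b⁻¹) ∈ N)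
    (hcard : ¬ p ∣ Nat.card (T ⊓ N : Subgroup G)) :
    ∃ y ∈ T, x⁻¹ * y ∈ N ∧ b * y * b⁻¹ = y := by
  classical
  let Ω := {y : G // y ∈ T ∧ x⁻¹ * y ∈ N}
  have : Fintype Ω := Fintype.ofFinite _
  let f : Function.End Ω := fun y => ⟨b * y.1 * b⁻¹, hT y.1 y.2.1, hN y.1 y.2.2⟩
  have hpow : ∀ (k : ℕ) (y : Ω), ((f ^ k) y).1 = b ^ k * y.1 * (b ^ k)⁻¹ := by
    intro k
    induction k with
    | zero =>
      intro y
      rw [pow_zero, pow_zero]
      change y.1 = _
      simp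
    | succ k ih =>
      intro y
      rw [pow_succ']
      change b * ((f ^ k) y).1 * b⁻¹ = _
      rw [ih, pow_succ']
      group
  have hf : f ^ p ^ 1 = 1 := by
    funext y
    apply Subtype.ext
    rw [pow_one, hpow, hbp]
    change _ = y.1
    simp
  have hmod := Equiv.Perm.card_fixedPoints_modEq hf
  have hcardΩ : Fintype.card Ω = Nat.card (T ⊓ N : Subgroup G) := by
    rw [← Nat.card_eq_fintype_card]
    apply Nat.card_congr
    refine ⟨fun y => ⟨x⁻¹ * y.1, T.mul_mem (T.inv_mem hx) y.2.1, y.2.2⟩,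
      fun z => ⟨x * z.1, T.mul_mem hx z.2.1, by rw [inv_mul_cancel_left]; exact z.2.2⟩, ?_, ?_⟩
    · intro y; apply Subtype.ext; simp
    · intro z; apply Subtype.ext; simp
  have hne : Fintype.card (Function.fixedPoints f) ≠ 0 := by
    intro h0
    rw [h0, hcardΩ] at hmod
    exact hcard ((Nat.modEq_zero_iff_dvd).1 hmod)
  obtain ⟨⟨y, hy⟩⟩ := Fintype.card_pos_iff.1 (Nat.pos_of_ne_zero hne)
  exact ⟨y.1, y.2.1, y.2.2, congrArg Subtype.val hy⟩

end Cfsg.Agent.Lib.Helper9
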