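import Mathlib
import Cfsg.Prelude.Def_Involutions
import Cfsg.Agent.Lib.Helper9.Basic
import Cfsg.Agent.Lib.Helper9.Invol

set_option autoImplicit false

namespace Cfsg.Agent.Lib.Helper9

section action

variable {G : Type*} [Group G] {H : Subgroup G}

theorem smul_mk_eq_iff (t g : G) : t • (QuotientGroup.mk g : G ⧸ H) = QuotientGroup.mk g ↔ g⁻¹ * t * g ∈ H := by
  rw [MulAction.Quotient.smul_mk, eq_comm, QuotientGroup.eq, smul_eq_mul, mul_assoc]

theorem smul_mk_one_eq_iff (t : G) : t • (QuotientGroup.mk 1 : G ⧸ H) = QuotientGroup.mk 1 ↔ t ∈ H := by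
  rw [smul_mk_eq_iff]; simp

theorem smul_mk_one (t : G) : t • (QuotientGroup.mk 1 : G ⧸ H) = QuotientGroup.mk t := by
  rw [MulAction.Quotient.smul_mk, smul_eq_mul, mul_one]

/-- An involution acting on a finite set: the cardinality is congruent mod 2 to the number of fixed
points. -/
theorem invol_card_mod {X : Type*} [MulAction G X] [Finite X] (t : G) (ht : t * t = 1) :
    Nat.card X ≡ Nat.card {x : X // t • x = x} [MOD 2] := by
  haveI : Fact (Nat.Prime 2) := ⟨Nat.prime_two⟩
  have hp : IsPGroup 2 (Subgroup.zpowers t) := by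
    rw [IsPGroup.iff_orderOf]
    rintro ⟨y, hy⟩
    obtain ⟨k, rfl⟩ := Subgroup.mem_zpowers_iff.1 hy
    have h2 : ((⟨t ^ k, hy⟩ : Subgroup.zpowers t)) ^ 2 = 1 := by
      ext
      simp only [Subgroup.coe_pow, Subgroup.coe_one]
      rw [← zpow_natCast, ← zpow_mul, mul_comm, zpow_mul]
      have : t ^ ((2 : ℕ) : ℤ) = 1 := by rw [zpow_natCast, pow_two, ht]
      rw [this, one_zpow]
    have hd := orderOf_dvd_of_pow_eq_one h2
    rcases (Nat.dvd_prime Nat.prime_two).1 hd with h | h
    · exact ⟨0, by simpa using h⟩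
    · exact ⟨1, by simpa using h⟩
  have h1 := hp.card_modEq_card_fixedPoints X
  have h2 : Nat.card (MulAction.fixedPoints (Subgroup.zpowers t) X) = Nat.card {x : X // t • x = x} := by
    apply Nat.card_congr
    apply Equiv.subtypeEquivRight
    intro x
    rw [MulAction.mem_fixedPoints]
    constructor
    · intro h; exact h ⟨t, Subgroup.mem_zpowers t⟩
    · rintro h ⟨y, hy⟩
      have hst : t ∈ MulAction.stabilizer G x := h
      have : y ∈ MulAction.stabilizer G x := (Subgroup.zpowers_le.2 hst) hy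
      exact this
  rw [← h2]; exact h1

end action

section se

variable {G : Type*} [Group G] [Finite G] {H : Subgroup G}

theorem se_mem_of_invol (hH : Cfsg.IsStronglyEmbedded H) {t g : G} (ht : orderOf t = 2)
    (h1 : t ∈ H) (h2 : g⁻¹ * t * g ∈ H) : g ∈ H := by
  by_contra hg
  have hodd := hH.2.2 g hg
  have hmem : t ∈ H ⊓ H.map (MulAut.conj g).toMonoidHom :=
    ⟨h1, (mem_map_conj_iff H g t).2 h2⟩
  have hd : orderOf (⟨t, hmem⟩ : ↥(H ⊓ H.map (MulAut.conj g).toMonoidHom)) ∣ _ := orderOf_dvd_natCard _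
  rw [Subgroup.orderOf_mk, ht] at hd
  exact (Nat.not_even_iff_odd.2 hodd) (even_iff_two_dvd.2 hd)

theorem se_fix_unique (hH : Cfsg.IsStronglyEmbedded H) {t : G} (ht : orderOf t = 2) {x y : G ⧸ H}
    (hx : t • x = x) (hy : t • y = y) : x = y := by
  induction x using QuotientGroup.induction_on with
  | H a =>
  induction y using QuotientGroup.induction_on with
  | H b =>
  rw [smul_mk_eq_iff] at hx hy
  rw [QuotientGroup.eq]
  have ht' : orderOf (a⁻¹ * t * a) = 2 := by
    have : a⁻¹ * t * a = MulAut.conj a⁻¹ t := by simp [MulAut.conj_apply]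
    rw [this, MulEquiv.orderOf_eq]; exact ht
  apply se_mem_of_invol hH ht' hx
  have e : (a⁻¹ * b)⁻¹ * (a⁻¹ * t * a) * (a⁻¹ * b) = b⁻¹ * t * b := by simp [mul_assoc]
  rw [e]; exact hy

theorem se_exists_invol (hH : Cfsg.IsStronglyEmbedded H) : ∃ s ∈ H, orderOf s = 2 := by
  haveI : Fact (Nat.Prime 2) := ⟨Nat.prime_two⟩
  obtain ⟨s, hs⟩ := exists_prime_orderOf_dvd_card' (G := H) 2 (even_iff_two_dvd.1 hH.2.1)
  exact ⟨s, s.2, by rw [Subgroup.orderOf_coe]; exact hs⟩

theorem se_odd_card (hH : Cfsg.IsStronglyEmbedded H) : Odd (Nat.card (G ⧸ H)) := by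
  obtain ⟨s, hsH, hs⟩ := se_exists_invol hH
  have h1 := invol_card_mod (X := G ⧸ H) s (mul_self_of_orderOf_two hs)
  have h2 : Nat.card {x : G ⧸ H // s • x = x} = 1 := by
    rw [Nat.card_eq_one_iff_unique]
    refine ⟨⟨?_⟩, ⟨⟨QuotientGroup.mk 1, (smul_mk_one_eq_iff s).2 hsH⟩⟩⟩
    rintro ⟨x, hx⟩ ⟨y, hy⟩
    exact Subtype.ext (se_fix_unique hH hs hx hy)
  rw [h2] at h1
  rw [Nat.odd_iff]
  exact h1

theorem se_fix_exists (hH : Cfsg.IsStronglyEmbedded H) {t : G} (ht : orderOf t = 2) :
    ∃ x : G ⧸ H, t • x = x := by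
  have h1 := invol_card_mod (X := G ⧸ H) t (mul_self_of_orderOf_two ht)
  have h2 := se_odd_card hH
  by_contra hne
  push Not at hne
  have h3 : Nat.card {x : G ⧸ H // t • x = x} = 0 := by
    haveI : IsEmpty {x : G ⧸ H // t • x = x} := ⟨fun x => hne x.1 x.2⟩
    exact Nat.card_of_isEmpty
  rw [h3] at h1
  rw [Nat.odd_iff] at h2
  have : Nat.card (G ⧸ H) % 2 = 0 := h1
  omega

theorem se_commute_fix (hH : Cfsg.IsStronglyEmbedded H) {s t : G} (hs : orderOf s = 2)
    (hst : s * t = t * s) {x : G ⧸ H} (hx : s • x = x) : t • x = x := by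
  apply se_fix_unique hH hs _ hx
  rw [← mul_smul, hst, mul_smul, hx]

/-- Two involutions with different fixed points are conjugate by an involution that maps the first
fixed point to the second. -/
theorem se_conj (hH : Cfsg.IsStronglyEmbedded H) {s t : G} (hs : orderOf s = 2) (ht : orderOf t = 2)
    {x y : G ⧸ H} (hx : s • x = x) (hy : t • y = y) (hxy : x ≠ y) :
    ∃ i : G, orderOf i = 2 ∧ i * s * i⁻¹ = t ∧ i • x = y := by
  have hss := mul_self_of_orderOf_two hs
  have htt := mul_self_of_orderOf_two ht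
  have hodd : Odd (orderOf (s * t)) := by
    by_contra hodd
    rw [Nat.not_odd_iff_even] at hodd
    obtain ⟨k, hk⟩ := hodd
    have hk2 : orderOf (s * t) = 2 * k := by omega
    have hpos : 0 < orderOf (s * t) := orderOf_pos _
    have hk0 : 0 < k := by omega
    obtain ⟨h1, h2, h3, h4⟩ := even_central hss htt hk2 hk0
    have hw : orderOf ((s * t) ^ k) = 2 := orderOf_two_of h2 h1
    have hwx := se_commute_fix hH hs h3 hx
    have hwy := se_commute_fix hH ht h4 hy
    exact hxy (se_fix_unique hH hw hwx hwy)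
  obtain ⟨j, hj⟩ := hodd
  have hconj := odd_conj hss htt hj
  set u := (s * t) ^ j with hu
  have hsu : s * u * s = u⁻¹ := conj_left_pow hss htt j
  have hii : (u * s) * (u * s) = 1 := by
    calc (u * s) * (u * s) = u * (s * u * s) := by simp [mul_assoc]
      _ = 1 := by rw [hsu]; simp
  have hc : (u * s) * s * (u * s)⁻¹ = t := by
    rw [← hconj]; simp [mul_assoc]
  have hne : u * s ≠ 1 := by
    intro h
    rw [h] at hc
    simp only [one_mul, inv_one, mul_one] at hc
    rw [← hc] at hy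
    exact hxy (se_fix_unique hH hs hx hy)
  refine ⟨u * s, orderOf_two_of hii hne, hc, ?_⟩
  apply se_fix_unique hH ht _ hy
  rw [← hc, ← mul_smul]
  simp only [inv_mul_cancel_right]
  rw [mul_smul, hx]

end se

end Cfsg.Agent.Lib.Helper9
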